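import Mathlib
import Cfsg.Agent.GT.TransferCocycle
import Cfsg.Agent.GT.TransferPNilp
import Cfsg.Agent.Inv.FzBasic

/-! A transfer lemma for a subgroup containing a Sylow 2-subgroup of the centraliser of an involution. -/

set_option autoImplicit false

namespace Cfsg.Agent.StC

open Subgroup MulAction Cfsg.Agent.GT.Tr Cfsg.Agent.Inv.Fz

variable {G : Type*} [Group G] [Finite G]

/-- Let `Q` have index two in `H`, let `u ∈ H - Q` be an involution in `O²(G)` and let `H` contain a Sylow 2-subgroup `S` of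
`C(u)`.  Then `H - Q` contains a second extremal class of conjugates of `u`. -/
theorem par_ext {H Q S : Subgroup G} (hQ : Q.relIndex H = 2) {u : G} (hu : u * u = 1) (hO : u ∈ pResidual 2 G)
    (h1 : u ∈ H) (h0 : u ∉ Q) (hS : IsSylIn 2 S (centralizer {u})) (hSH : S ≤ H) :
    ∃ g : G, g * u * g⁻¹ ∈ H ∧ g * u * g⁻¹ ∉ Q ∧ (∀ x ∈ S, g * x * g⁻¹ ∈ H) ∧ ∀ h ∈ H, h * u * h⁻¹ ≠ g * u * g⁻¹ := by
  classical
  have : (Q.subgroupOf H).Normal := normal_of_index_eq_two hQ
  have : IsCyclic (H ⧸ Q.subgroupOf H) := isCyclic_of_prime_card (p := 2) hQ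
  let _ : CommGroup (H ⧸ Q.subgroupOf H) := IsCyclic.commGroup
  set φ := QuotientGroup.mk' (Q.subgroupOf H) with hφ
  have hτ : MonoidHom.transfer φ u = 1 :=
    pResidual_le_ker (IsPGroup.of_card (n := 1) (G := H ⧸ Q.subgroupOf H) (by rw [pow_one]; exact hQ)) _ hO
  have hφ1 : ∀ x : H, φ x = 1 ↔ (x : G) ∈ Q := fun x => QuotientGroup.eq_one_iff x
  have := Fintype.ofFinite (G ⧸ H)
  have hc := isActCocycle_trCocycle φ
  set c := trCocycle φ with hcdef
  have hy : u ^ 2 = 1 := by rw [pow_two, hu]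
  have hzp : ∀ s ∈ zpowers u, s = 1 ∨ s = u := by
    intro s hs
    obtain ⟨k, rfl⟩ := (mem_powers_iff_mem_zpowers.2 hs)
    rcases Nat.even_or_odd' k with ⟨j, rfl | rfl⟩
    · left; simp [pow_mul, hy]
    · right; simp [pow_succ, pow_mul, hy]
  have hyy : ∀ q : G ⧸ H, u • u • q = q := fun q => by rw [← mul_smul, hu, one_smul]
  have h2 : ∏ q ∈ Finset.univ.filter (fun q : G ⧸ H => ¬ u • q = q), c u q = 1 := by
    refine hc.prod_eq_one (zpowers u) _ (fun s hs q hq => ?_) (fun q hq s hs h => ?_) (mem_zpowers u)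
    · rcases hzp s hs with rfl | rfl
      · rwa [one_smul]
      · simp only [Finset.mem_filter, Finset.mem_univ, true_and] at hq ⊢
        rw [hyy]
        exact fun h => hq h.symm
    · rcases hzp s hs with rfl | rfl
      · exact hc.one q
      · exact absurd h (Finset.mem_filter.1 hq).2
  set X := Finset.univ.filter (fun q : G ⧸ H => u • q = q) with hX
  have h3 : ∏ q ∈ X.filter (fun q => ¬ c u q = 1), c u q = 1 := by
    rw [transfer_eq_prod_trCocycle, ← Finset.prod_filter_mul_prod_filter_not Finset.univ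
      (fun q : G ⧸ H => u • q = q), h2, mul_one, ← hX,
      ← Finset.prod_filter_mul_prod_filter_not X (fun q => c u q = 1),
      Finset.prod_eq_one fun q hq => (Finset.mem_filter.1 hq).2, one_mul] at hτ
    exact hτ
  have hsq : ∀ q ∈ X, c u q ^ 2 = 1 := fun q hq => by
    rw [← hc.pow_of_fixed (Finset.mem_filter.1 hq).2, hy, hc.one]
  have h4 : 2 ∣ (X.filter (fun q => ¬ c u q = 1)).card := by
    rcases (X.filter (fun q => ¬ c u q = 1)).eq_empty_or_nonempty with h | ⟨q₀, hq₀⟩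
    · simp [h]
    obtain ⟨hq1, hq2⟩ := Finset.mem_filter.1 hq₀
    rw [Finset.prod_congr rfl (fun q hq => eq_of_sq_eq_one_of_isCyclic _ _ (hsq q (Finset.mem_filter.1 hq).1)
      (hsq q₀ hq1) (Finset.mem_filter.1 hq).2 hq2), Finset.prod_const] at h3
    rw [← orderOf_eq_prime (hsq q₀ hq1) hq2]
    exact orderOf_dvd_of_pow_eq_one h3
  have inv : ∀ x : G, x * u = u * x → ∀ q : G ⧸ H, u • q = q → u • x • q = x • q ∧ c u (x • q) = c u q :=
    fun x hx q hq => by
      have h5 := hc.conj_of_fixed x hq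
      rw [hx, mul_inv_cancel_right] at h5
      exact ⟨by rw [← mul_smul, ← hx, mul_smul, hq], h5⟩
  let O := orbit (centralizer ({u} : Set G)) ((1 : G) : G ⧸ H)
  have hb : u • ((1 : G) : G ⧸ H) = ((1 : G) : G ⧸ H) := smul_coset_eq_iff.2 (by simpa using h1)
  have hO1 : ∀ q ∈ O, u • q = q ∧ ¬ c u q = 1 := by
    rintro _ ⟨x, rfl⟩
    obtain ⟨h5, h6⟩ := inv x (mem_centralizer_singleton_iff.1 x.2) _ hb
    refine ⟨h5, fun h => h0 ((hφ1 ⟨u, h1⟩).1 ?_)⟩
    rw [← trCocycle_one_coset φ ⟨u, h1⟩]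
    exact h6.symm.trans h
  have hO2 : ¬ 2 ∣ O.ncard := by
    have e : stabilizer (centralizer ({u} : Set G)) ((1 : G) : G ⧸ H) = H.subgroupOf _ := by
      ext x
      rw [mem_stabilizer_iff, mem_subgroupOf]
      change (x : G) • ((1 : G) : G ⧸ H) = _ ↔ _
      rw [smul_coset_eq_iff]
      simp
    rw [← index_stabilizer, e]
    exact fun h => hS.not_dvd_relIndex (h.trans (relIndex_dvd_of_le_left _ hSH))
  let Y : SubMulAction S (G ⧸ H) :=
    { carrier := {q | (u • q = q ∧ ¬ c u q = 1) ∧ q ∉ O}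
      smul_mem' := fun x q hq => by
        have hx := hS.le x.2
        obtain ⟨h5, h6⟩ := inv x (mem_centralizer_singleton_iff.1 hx) q hq.1.1
        refine ⟨⟨h5, fun h => hq.1.2 (h6.symm.trans h)⟩, fun ⟨y, hy⟩ => hq.2 ⟨⟨x, hx⟩⁻¹ * y, ?_⟩⟩
        change ((x : G)⁻¹ * y) • ((1 : G) : G ⧸ H) = q
        rw [mul_smul, inv_smul_eq_iff]
        exact hy }
  have h8 : ¬ 2 ∣ Nat.card Y := by
    have e : (X.filter (fun q => ¬ c u q = 1)).card = O.ncard + Nat.card Y := by
      rw [← Set.ncard_coe_finset, ← Set.ncard_inter_add_ncard_sdiff_eq_ncard _ O]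
      congr 1
      · congr 1
        exact Set.inter_eq_right.2 fun q hq => by simpa [hX] using hO1 q hq
      · change _ = Set.ncard _
        congr 1
        ext q
        simp only [hX, Finset.coe_filter, Finset.mem_filter, Finset.mem_univ, true_and, Set.mem_sdiff,
          Set.mem_ofPred_eq]
        rfl
    rw [e] at h4
    exact fun h => hO2 ((Nat.dvd_add_left h).1 h4)
  obtain ⟨⟨q, ⟨hq1, hq2⟩, hq4⟩, hq3⟩ := hS.2.1.nonempty_fixed_point_of_prime_not_dvd_card Y h8
  obtain ⟨t, rfl⟩ := QuotientGroup.mk_surjective q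
  have h9 := smul_coset_eq_iff.1 hq1
  refine ⟨t⁻¹, by rwa [inv_inv], fun h => hq2 ((trCocycle_coset φ h9).trans ((hφ1 _).2 (by rwa [inv_inv] at h))),
    fun x hx => ?_, fun h hh e => hq4 ⟨⟨t * h, mem_centralizer_singleton_iff.2 ?_⟩, ?_⟩⟩
  · rw [inv_inv]
    exact smul_coset_eq_iff.1 (congrArg Subtype.val (hq3 ⟨x, hx⟩))
  · calc _ = t * (h * u * h⁻¹) * h := by group
      _ = _ := by rw [e]; group
  · change (t * h) • ((1 : G) : G ⧸ H) = _
    rw [MulAction.Quotient.smul_mk, smul_eq_mul, mul_one, eq_comm, QuotientGroup.eq]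
    simpa using hh

/-- If every conjugate of `u` in `H - Q` is conjugate to `u` in `H`, then `u` is not in `O²(G)`. -/
theorem par {H Q S : Subgroup G} (hQ : Q.relIndex H = 2) {u : G} (hu : u * u = 1) (h1 : u ∈ H) (h0 : u ∉ Q)
    (hS : IsSylIn 2 S (centralizer {u})) (hSH : S ≤ H)
    (h : ∀ y ∈ H, y ∉ Q → IsConj u y → ∃ k ∈ H, k * u * k⁻¹ = y) : u ∉ pResidual 2 G := fun hO => by
  obtain ⟨g, h2, h3, -, h4⟩ := par_ext hQ hu hO h1 h0 hS hSH
  obtain ⟨k, hk, e⟩ := h _ h2 h3 (isConj_iff.2 ⟨g, rfl⟩)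
  exact h4 k hk e

end Cfsg.Agent.StC
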